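import Cfsg.Agent.LieClassical.HermBasic

/-!
# S3826, `PSU_3`: counting solutions over the field with `q²` elements (helper7)
-/

set_option autoImplicit false

namespace Cfsg.Agent.H7.Wf.UField

open Finset Cfsg.Agent.LieClassical.HermBasic

variable {F : Type*} [Field F] [Fintype F] [DecidableEq F] {q : ℕ}

/-- norm fibres -/
theorem card_norm_le (hF : Fintype.card F = q ^ 2) (κ : F) :
    #{x : F | x * x ^ q = κ} ≤ q + 1 := by
  by_cases h : ∃ y : F, y * y ^ q = κ
  · obtain ⟨y, hy⟩ := h
    by_cases h0 : κ = 0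
    · subst h0
      have : ({x : F | x * x ^ q = 0} : Finset F) ⊆ {0} := by
        intro x hx
        rw [mem_filter] at hx
        rw [mem_singleton]
        exact (norm_eq_zero hF).1 hx.2
      exact (card_le_card this).trans (by simp)
    · have h1 := card_norm_eq hF (c := κ) (by rw [← hy, norm_pow_q hF]) h0
      rw [Nat.card_eq_fintype_card, Fintype.card_subtype] at h1
      exact h1.le
  · have : ({x : F | x * x ^ q = κ} : Finset F) = ∅ := by
      rw [filter_eq_empty_iff]
      intro x _ hx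
      exact h ⟨x, hx⟩
    rw [this]
    simp

/-- pairs with `N(y) + N(z) = κ` -/
theorem card_pair_le (hF : Fintype.card F = q ^ 2) (κ : F) :
    #{v : F × F | v.1 * v.1 ^ q + v.2 * v.2 ^ q = κ} ≤ q ^ 2 * (q + 1) := by
  have h1 := card_le_mul_card_image (f := fun v : F × F => v.1)
    ({v : F × F | v.1 * v.1 ^ q + v.2 * v.2 ^ q = κ} : Finset (F × F)) (q + 1) (by
      intro y _
      refine le_trans ?_ (card_norm_le hF (κ - y * y ^ q))
      refine card_le_card_of_injOn (fun v => v.2) ?_ ?_
      · intro v hv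
        simp only [coe_filter, mem_filter, mem_univ, true_and, Set.mem_ofPred_eq] at hv ⊢
        obtain ⟨h1, h2⟩ := hv
        rw [← h2, ← h1]
        ring
      · intro v hv w hw h
        simp only [coe_filter, mem_filter, mem_univ, true_and, Set.mem_ofPred_eq] at hv hw
        exact Prod.ext (hv.2.trans hw.2.symm) h)
  refine h1.trans ?_
  rw [mul_comm]
  refine Nat.mul_le_mul_right _ ?_
  rw [← hF]
  exact card_le_univ _

variable (τ : F ≃+* F)

theorem card_ker (hF : Fintype.card F = q ^ 2) {b c : F} (hb : b ≠ 0) :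
    #{p : F × F | b * (p.2 * τ p.1) + c * τ p.2 = 0} ≤ 2 * q ^ 2 := by
  have h1 : #{p : F × F | b * (p.2 * τ p.1) + c * τ p.2 = 0} =
      #{p ∈ ({p : F × F | b * (p.2 * τ p.1) + c * τ p.2 = 0} : Finset (F × F)) | p.2 = 0} +
      #{p ∈ ({p : F × F | b * (p.2 * τ p.1) + c * τ p.2 = 0} : Finset (F × F)) | ¬ p.2 = 0} :=
    (card_filter_add_card_filter_not _).symm
  rw [h1, two_mul]
  refine Nat.add_le_add ?_ ?_
  · rw [← hF]
    refine (card_le_card_of_injOn (t := univ) (fun p => p.1) (fun _ _ => mem_coe.2 (mem_univ _)) ?_).trans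
      (card_le_univ _)
    intro v hv w hw h
    simp only [coe_filter, mem_filter, mem_univ, true_and, Set.mem_ofPred_eq] at hv hw
    exact Prod.ext h (hv.2.trans hw.2.symm)
  · rw [← hF]
    refine (card_le_card_of_injOn (t := univ) (fun p => p.2) (fun _ _ => mem_coe.2 (mem_univ _)) ?_).trans
      (card_le_univ _)
    intro v hv w hw h
    simp only [coe_filter, mem_filter, mem_univ, true_and, Set.mem_ofPred_eq] at hv hw
    have h : v.2 = w.2 := h
    refine Prod.ext ?_ h
    apply τ.injective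
    have e1 := hv.1
    have e2 := hw.1
    rw [← h] at e2
    have e3 : b * v.2 * (τ v.1 - τ w.1) = 0 := by linear_combination e1 - e2
    rcases mul_eq_zero.1 e3 with e4 | e4
    · exact absurd e4 (mul_ne_zero hb hv.2)
    · exact sub_eq_zero.1 e4

theorem card_affine (hF : Fintype.card F = q ^ 2) {a b c : F} (hb : b ≠ 0) :
    #{p : F × F | a * p.1 + b * (p.2 * τ p.1) + c * τ p.2 = 0} ≤ 2 * q ^ 2 := by
  refine le_trans ?_ (card_ker τ hF (c := c) hb)
  rw [card_eq_sum_card_fiberwise (f := fun p : F × F => p.1) (t := univ) (fun _ _ => mem_coe.2 (mem_univ _)),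
    card_eq_sum_card_fiberwise (s := ({p : F × F | b * (p.2 * τ p.1) + c * τ p.2 = 0} : Finset (F × F)))
      (f := fun p : F × F => p.1) (t := univ) (fun _ _ => mem_coe.2 (mem_univ _))]
  refine sum_le_sum fun u _ => ?_
  by_cases hne : ({p ∈ ({p : F × F | a * p.1 + b * (p.2 * τ p.1) + c * τ p.2 = 0} : Finset (F × F)) | p.1 = u}
      : Finset (F × F)) = ∅
  · rw [hne]; simp
  obtain ⟨p₀, hp₀⟩ := nonempty_iff_ne_empty.2 hne
  simp only [mem_filter, mem_univ, true_and] at hp₀
  refine card_le_card_of_injOn (fun p => (u, p.2 - p₀.2)) ?_ ?_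
  · intro p hp
    simp only [coe_filter, mem_filter, mem_univ, true_and, Set.mem_ofPred_eq] at hp ⊢
    refine ⟨?_, trivial⟩
    have e1 := hp.1
    have e2 := hp₀.1
    rw [hp.2] at e1
    rw [hp₀.2] at e2
    rw [map_sub]
    linear_combination e1 - e2
  · intro v hv w hw h
    simp only [coe_filter, mem_filter, mem_univ, true_and, Set.mem_ofPred_eq, Prod.mk.injEq] at hv hw h
    exact Prod.ext (hv.2.trans hw.2.symm) (sub_left_injective h)

/-- **The count.** -/
theorem card_cyc (hF : Fintype.card F = q ^ 2) {a b c : F} (hb : b ≠ 0) :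
    #{v : F × F × F | v.1 * v.1 ^ q + v.2.1 * v.2.1 ^ q + v.2.2 * v.2.2 ^ q = 1 ∧
      a * (v.2.1 * τ v.1) + b * (v.2.2 * τ v.2.1) + c * (v.1 * τ v.2.2) = 0} ≤ (q + 1) * (2 * q ^ 2 + 2) := by
  obtain ⟨S, hS⟩ : ∃ S : Finset (F × F × F), S =
    ({v : F × F × F | v.1 * v.1 ^ q + v.2.1 * v.2.1 ^ q + v.2.2 * v.2.2 ^ q = 1 ∧
      a * (v.2.1 * τ v.1) + b * (v.2.2 * τ v.2.1) + c * (v.1 * τ v.2.2) = 0} : Finset (F × F × F)) := ⟨_, rfl⟩
  have hmem : ∀ v, v ∈ S ↔ v.1 * v.1 ^ q + v.2.1 * v.2.1 ^ q + v.2.2 * v.2.2 ^ q = 1 ∧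
      a * (v.2.1 * τ v.1) + b * (v.2.2 * τ v.2.1) + c * (v.1 * τ v.2.2) = 0 := by
    intro v; rw [hS, mem_filter]; simp
  rw [← hS]
  have h1 : #S = #{v ∈ S | v.1 = 0} + #{v ∈ S | ¬ v.1 = 0} := (card_filter_add_card_filter_not _).symm
  -- first coordinate zero
  have h2 : #{v ∈ S | v.1 = 0} ≤ 2 * (q + 1) := by
    have h3 : ({v ∈ S | v.1 = 0} : Finset (F × F × F)) ⊆
        ({x : F | x * x ^ q = 1} : Finset F).image (fun y => ((0 : F), y, (0 : F))) ∪
        ({x : F | x * x ^ q = 1} : Finset F).image (fun y => ((0 : F), (0 : F), y)) := by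
      rintro ⟨x, y, z⟩ hv
      rw [mem_filter, hmem] at hv
      obtain ⟨⟨e1, e2⟩, e3⟩ := hv
      simp only at e1 e2 e3
      subst e3
      rw [map_zero, zero_mul, mul_zero, mul_zero, mul_zero, zero_add, add_zero] at e2
      rw [zero_mul, zero_add] at e1
      rw [mem_union, mem_image, mem_image]
      rcases mul_eq_zero.1 e2 with e4 | e4
      · exact absurd e4 hb
      · rcases mul_eq_zero.1 e4 with e5 | e5
        · left
          subst e5
          rw [zero_mul, add_zero] at e1
          exact ⟨y, by simpa using e1, rfl⟩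
        · right
          have e6 : y = 0 := (map_eq_zero τ).1 e5
          subst e6
          rw [zero_mul, zero_add] at e1
          exact ⟨z, by simpa using e1, rfl⟩
    refine (card_le_card h3).trans ((card_union_le _ _).trans ?_)
    have h4 := card_norm_le hF (1 : F)
    have h5 := card_image_le (s := ({x : F | x * x ^ q = 1} : Finset F)) (f := fun y => ((0 : F), y, (0 : F)))
    have h6 := card_image_le (s := ({x : F | x * x ^ q = 1} : Finset F)) (f := fun y => ((0 : F), (0 : F), y))
    omega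
  -- first coordinate not zero
  have h3 : #{v ∈ S | ¬ v.1 = 0} ≤ (q + 1) * (2 * q ^ 2) := by
    have h4 := card_le_mul_card_image (f := fun v : F × F × F => (v.2.1 / v.1, v.2.2 / v.1))
      ({v ∈ S | ¬ v.1 = 0} : Finset (F × F × F)) (q + 1) (by
        intro y _
        refine le_trans ?_ (card_norm_le hF (1 + y.1 * y.1 ^ q + y.2 * y.2 ^ q)⁻¹)
        refine card_le_card_of_injOn (fun v => v.1) ?_ ?_
        · intro v hv
          simp only [coe_filter, mem_filter, mem_univ, true_and, Set.mem_ofPred_eq] at hv ⊢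
          rw [hmem] at hv
          obtain ⟨⟨⟨e1, -⟩, e2⟩, e3⟩ := hv
          rw [← e3]
          simp only
          apply eq_inv_of_mul_eq_one_left
          have e4 : v.1 ^ q ≠ 0 := pow_ne_zero _ e2
          rw [div_pow, div_pow]
          field_simp
          linear_combination e1
        · intro v hv w hw h
          simp only [coe_filter, mem_filter, mem_univ, true_and, Set.mem_ofPred_eq] at hv hw
          have h : v.1 = w.1 := h
          have e3 := hv.2
          rw [← hw.2] at e3
          rw [Prod.mk.injEq, ← h, div_left_inj' hv.1.2, div_left_inj' hv.1.2] at e3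
          exact Prod.ext h (Prod.ext e3.1 e3.2))
    refine h4.trans (Nat.mul_le_mul_left _ ?_)
    refine le_trans (card_le_card ?_) (card_affine τ hF (a := a) (b := b) (c := c) hb)
    intro p hp
    rw [mem_image] at hp
    obtain ⟨v, hv, rfl⟩ := hp
    rw [mem_filter, hmem] at hv
    obtain ⟨⟨-, e1⟩, e2⟩ := hv
    rw [mem_filter]
    refine ⟨mem_univ _, ?_⟩
    simp only
    have e3 : τ v.1 ≠ 0 := (map_ne_zero τ).2 e2
    rw [map_div₀, map_div₀]
    field_simp
    linear_combination e1
  rw [h1]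
  calc _ ≤ 2 * (q + 1) + (q + 1) * (2 * q ^ 2) := Nat.add_le_add h2 h3
    _ = _ := by ring

end Cfsg.Agent.H7.Wf.UField
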