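import Cfsg.Agent.H7.Wf.UCount
import Cfsg.Agent.H533.Wf.Aut

/-!
# S3826, `PSU_3(q)`, `q ≡ 2 (mod 3)`, `q ≥ 5`: the row (helper7)

The frames: `|Fix α|² < |Ω|` for every automorphism of order 3, and `3 ∤ |Ω|`.
-/

set_option autoImplicit false

namespace Cfsg.Agent.H7.Wf.UFrame

open Matrix Cfsg Cfsg.Agent.LieClassical.HermBasic Cfsg.Agent.LieClassical.HermSiegel
open Cfsg.Agent.LieClassical.SUBasic
open Cfsg.Agent.ClassicalGeometry.PSUAutCount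
open Cfsg.Agent.ClassicalGeometry.UnitAutBasic (pr pr_surjective)
open Cfsg.Agent.Schreier.PSU (mapGU gm_mapGU f₁ f₁_eq_conj)
open Cfsg.Agent.CpAutU.Desc (toAut_mul toAut_one gm_mapGU' mapGU_one exists_scalar exists_conj)
open Cfsg.Agent.CpAutU.Fld (exists_s')
open Cfsg.Agent.CpAut.Psl (fixf mem_fixf perm_apply)
open Cfsg.Agent.H7.Wf.UAct Cfsg.Agent.H7.Wf.UField Cfsg.Agent.H7.Wf.UCount
open Cfsg.Agent.H533.Wf

theorem num_lin {q : ℕ} (hq : 5 ≤ q) : (7 * q ^ 2 + 4) ^ 2 < 6 * (q ^ 3 * ((q - 1) * (q ^ 2 - q + 1))) := by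
  obtain ⟨m, rfl⟩ : ∃ m, q = m + 5 := ⟨q - 5, by omega⟩
  have e1 : m + 5 - 1 = m + 4 := by omega
  have e2 : (m + 5) ^ 2 - (m + 5) + 1 = m ^ 2 + 9 * m + 21 := by
    have : (m + 5) ^ 2 = (m ^ 2 + 9 * m + 20) + (m + 5) := by ring
    rw [this, Nat.add_sub_cancel]
  rw [e1, e2]
  have e3 : 6 * ((m + 5) ^ 3 * ((m + 4) * (m ^ 2 + 9 * m + 21))) = (7 * (m + 5) ^ 2 + 4) ^ 2 +
      (6 * m ^ 6 + 168 * m ^ 5 + 1913 * m ^ 4 + 11254 * m ^ 3 + 35554 * m ^ 2 + 55490 * m + 30959) := by ring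
  rw [e3]
  omega

theorem num_semi {s q : ℕ} (hs : 2 ≤ s) (hq : q = s ^ 3) :
    (((s ^ 2) ^ 2 + s ^ 2 + 1) ^ 2 + 4 * q ^ 2 + 4) ^ 2 < 6 * (q ^ 3 * ((q - 1) * (q ^ 2 - q + 1))) := by
  subst hq
  obtain ⟨m, rfl⟩ : ∃ m, s = m + 2 := ⟨s - 2, by omega⟩
  have e1 : (m + 2) ^ 3 - 1 = m ^ 3 + 6 * m ^ 2 + 12 * m + 7 := by
    have : (m + 2) ^ 3 = m ^ 3 + 6 * m ^ 2 + 12 * m + 7 + 1 := by ring
    rw [this, Nat.add_sub_cancel]
  have e2 : ((m + 2) ^ 3) ^ 2 - (m + 2) ^ 3 + 1 =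
      (m + 2) ^ 3 * (m ^ 3 + 6 * m ^ 2 + 12 * m + 7) + 1 := by
    have : ((m + 2) ^ 3) ^ 2 = (m + 2) ^ 3 * (m ^ 3 + 6 * m ^ 2 + 12 * m + 7) + (m + 2) ^ 3 := by ring
    rw [this, Nat.add_sub_cancel]
  rw [e1, e2]
  have e3 : 6 * (((m + 2) ^ 3) ^ 3 * ((m ^ 3 + 6 * m ^ 2 + 12 * m + 7) *
      ((m + 2) ^ 3 * (m ^ 3 + 6 * m ^ 2 + 12 * m + 7) + 1))) =
      ((((m + 2) ^ 2) ^ 2 + (m + 2) ^ 2 + 1) ^ 2 + 4 * ((m + 2) ^ 3) ^ 2 + 4) ^ 2 +
      (6 * m ^ 18 + 216 * m ^ 17 + 3671 * m ^ 16 + 39124 * m ^ 15 + 292908 * m ^ 14 + 1635200 * m ^ 13 +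
        7051378 * m ^ 12 + 24003312 * m ^ 11 + 65346472 * m ^ 10 + 143230106 * m ^ 9 + 253119017 * m ^ 8 +
        359355888 * m ^ 7 + 406135336 * m ^ 6 + 359591456 * m ^ 5 + 243093086 * m ^ 4 + 120420080 * m ^ 3 +
        40790076 * m ^ 2 + 8291184 * m + 734327) := by ring
  rw [e3]
  exact Nat.lt_add_of_pos_right (by positivity)

variable {F : Type*} [Field F] [Fintype F] {q : ℕ}

/-- the general bound -/
theorem bound (hF : Fintype.card F = q ^ 2) {A : GU 3 F q} {ρ : F ≃+* F} (h : toAut A ρ ^ 3 = 1) {X : ℕ}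
    (hX : Nat.card {B : GU 3 F q // Fx A ρ B} ≤ X * (q + 1) ^ 3) :
    6 * Nat.card {x : GU 3 F q ⧸ Mon F q // op A ρ x = x} ≤ X + 4 * q ^ 2 + 4 := by
  have hq : q ≠ 0 := (q_pos hF).ne'
  obtain ⟨-, l, hl, hS⟩ := exists_scalar hF le_rfl h
  have hl0 : l ≠ 0 := by
    rintro rfl
    rw [zero_mul] at hl
    exact zero_ne_one hl
  have hS' : ∀ v, S A ρ (S A ρ (S A ρ v)) = l • v := hS
  have h1 := card_fixed_mul hF A ρ
  have h2 := card_or_le (α := GU 3 F q) (P := fun B => B⁻¹ * (A * mapGU ρ B) ∈ Mon F q) (Q := Fx A ρ)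
    (R := fun B => Cyc A ρ 0 1 2 B ∨ Cyc A ρ 0 2 1 B) (fun B hB => cases_of_mem hq hl0 hS' hB)
  have h3 := card_or_le (α := GU 3 F q) (P := fun B => Cyc A ρ 0 1 2 B ∨ Cyc A ρ 0 2 1 B)
    (Q := Cyc A ρ 0 1 2) (R := Cyc A ρ 0 2 1) (fun _ h => h)
  have h4 := card_Cyc hF A ρ (i := 0) (j := 1) (k := 2) (by decide) (by decide) (by decide)
  have h5 := card_Cyc hF A ρ (i := 0) (j := 2) (k := 1) (by decide) (by decide) (by decide)
  have h6 : 0 < (q + 1) ^ 3 := by positivity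
  refine Nat.le_of_mul_le_mul_right ?_ h6
  calc 6 * Nat.card {x : GU 3 F q ⧸ Mon F q // op A ρ x = x} * (q + 1) ^ 3
      = Nat.card {x : GU 3 F q ⧸ Mon F q // op A ρ x = x} * (6 * (q + 1) ^ 3) := by ring
    _ = _ := h1
    _ ≤ _ := h2
    _ ≤ X * (q + 1) ^ 3 + ((2 * q ^ 2 + 2) * (q + 1) ^ 3 + (2 * q ^ 2 + 2) * (q + 1) ^ 3) :=
        Nat.add_le_add hX (h3.trans (Nat.add_le_add h4 h5))
    _ = _ := by ring

/-- **Automorphisms of order 3 fix few frames.** -/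
theorem fix_sq_lt (hF : Fintype.card F = q ^ 2) (hq : 5 ≤ q) {α : MulAut (PSU 3 F q)} (h3 : α ^ 3 = 1)
    (h1 : α ≠ 1) : Nat.card {x : GU 3 F q ⧸ Mon F q // (action hF (by omega)).toSMul.smul α x = x} ^ 2 <
      Nat.card (GU 3 F q ⧸ Mon F q) := by
  have hq3 : 3 ≤ q := by omega
  have hΩ := card_frames hF
  obtain ⟨⟨A, ρ⟩, hα⟩ := exists_lift hF hq3 α
  simp only at hα
  by_cases hρ : ρ = 1
  · subst hρ
    have hA : ¬ ∃ c : F, gm A = c • 1 := by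
      rintro ⟨c, hc⟩
      apply h1
      have hc1 : c * c ^ q = 1 := by
        have h2 := coeff_norm (g := A) (j := 0) (k := 0) (c := c) (by
          rw [hc, Matrix.smul_mulVec, one_mulVec])
        exact h2
      have h2 : A = sc 3 ⟨c, hc1⟩ * 1 := by
        apply gm_inj
        rw [gm_sc_mul, gm_one]
        exact hc
      rw [← hα, h2, toAut_sc_mul, toAut_one]
    have h2 := bound hF (X := 3 * q ^ 2) (by rw [hα, h3]) (card_Fx_lin hF hA)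
    have h4 : {x : GU 3 F q ⧸ Mon F q // (action hF hq3).toSMul.smul α x = x} =
        {x : GU 3 F q ⧸ Mon F q // op A 1 x = x} := by
      congr 1
      funext x
      rw [← hα, smul_eq hF hq3]
    rw [h4]
    have h5 := num_lin hq
    rw [← hΩ] at h5
    generalize Nat.card {x : GU 3 F q ⧸ Mon F q // op A 1 x = x} = f at h2
    generalize Nat.card (GU 3 F q ⧸ Mon F q) = w at h5
    have h6 : 6 * f ≤ 7 * q ^ 2 + 4 := by linarith
    have h7 : (6 * f) ^ 2 ≤ (7 * q ^ 2 + 4) ^ 2 := Nat.pow_le_pow_left h6 2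
    nlinarith
  · obtain ⟨ho, M, hM⟩ := exists_conj hF le_rfl Nat.prime_three (by norm_num) (by rw [hα, h3]) hρ
    obtain ⟨s, hs2, hs, hqs⟩ := exists_s' hF ho (by decide)
    rw [hα] at hM
    have hf3 : toAut (1 : GU 3 F q) ρ ^ 3 = 1 := by
      have h2 : toAut (1 : GU 3 F q) ρ = (toAut M 1)⁻¹ * α * toAut M 1 := by rw [hM]; group
      have h4 : ((toAut M 1)⁻¹ * α * toAut M 1) ^ 3 = (toAut M 1)⁻¹ * α ^ 3 * toAut M 1 := by
        rw [pow_three, pow_three]; group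
      rw [h2, h4, h3]
      group
    have h2 := bound hF (X := (Nat.card ↥(fixf ρ) ^ 2 + Nat.card ↥(fixf ρ) + 1) ^ 2) hf3 (card_Fx_semi hF ρ)
    have h4 : Nat.card {x : GU 3 F q ⧸ Mon F q // (action hF hq3).toSMul.smul α x = x} =
        Nat.card {x : GU 3 F q ⧸ Mon F q // op 1 ρ x = x} := by
      let _ := action hF hq3
      have e : ∀ x : GU 3 F q ⧸ Mon F q, α • x = x ↔
          op 1 ρ ((toAut M 1)⁻¹ • x) = (toAut M 1)⁻¹ • x := by
        intro x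
        have h5 : op 1 ρ ((toAut M 1)⁻¹ • x) = toAut (1 : GU 3 F q) ρ • ((toAut M 1)⁻¹ • x) :=
          (smul_eq hF hq3 1 ρ _).symm
        rw [h5, eq_inv_smul_iff, smul_smul, smul_smul, ← hM]
      refine Nat.card_congr
        { toFun := fun x => ⟨(toAut M 1)⁻¹ • x.1, (e x.1).1 x.2⟩
          invFun := fun x => ⟨toAut M 1 • x.1, (e _).2 (by rw [inv_smul_smul]; exact x.2)⟩
          left_inv := fun x => Subtype.ext (smul_inv_smul _ _)
          right_inv := fun x => Subtype.ext (inv_smul_smul _ _) }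
    rw [h4]
    have h5 := num_semi hs2 hqs
    rw [← hΩ] at h5
    rw [hs] at h2
    generalize Nat.card {x : GU 3 F q ⧸ Mon F q // op 1 ρ x = x} = f at h2
    generalize Nat.card (GU 3 F q ⧸ Mon F q) = w at h5
    have h7 : (6 * f) ^ 2 ≤ (((s ^ 2) ^ 2 + s ^ 2 + 1) ^ 2 + 4 * q ^ 2 + 4) ^ 2 := Nat.pow_le_pow_left h2 2
    have h8 : (6 * f) ^ 2 < 6 * (6 * w) := lt_of_le_of_lt h7 h5
    nlinarith

/-- **`q ≡ 2 (mod 3)`.** -/
theorem arow_two (hF : Fintype.card F = q ^ 2) (hq : 5 ≤ q) (hq3 : q % 3 = 2) : ARow 3 (PSU 3 F q) := by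
  intro Γ C D h
  have hq2 : 3 ≤ q := by omega
  have : Fact (Nat.Prime 3) := ⟨Nat.prime_three⟩
  have hfin : Finite (PSU 3 F q) := by
    have h0 : Finite (SU 3 F q) := inferInstance
    exact Finite.of_surjective _ (pr_surjective (n := 3) (F := F) (q := q))
  let _ := action hF hq2
  obtain ⟨c, hc⟩ := h.neC
  obtain ⟨d, hd⟩ := h.neD
  have key : ∀ x : MulAut (PSU 3 F q), orderOf x = 3 →
      Nat.card (MulAction.fixedBy (GU 3 F q ⧸ Mon F q) x) ^ 2 < Nat.card (GU 3 F q ⧸ Mon F q) := by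
    intro x hx
    refine fix_sq_lt hF hq (orderOf_dvd_iff_pow_eq_one.1 (dvd_of_eq hx)) ?_
    rintro rfl
    rw [orderOf_one] at hx
    norm_num at hx
  refine h.false_of_fix (Ω := GU 3 F q ⧸ Mon F q) (fun a b => exists_conj_smul hF hq2 a b)
    (not_dvd_frames hF hq3) hc hd ?_
  have h1 := key c (h.ordC c hc)
  have h2 := key d (h.ordD d hd)
  rcases le_total (Nat.card (MulAction.fixedBy (GU 3 F q ⧸ Mon F q) c))
    (Nat.card (MulAction.fixedBy (GU 3 F q ⧸ Mon F q) d)) with h3 | h3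
  · refine lt_of_le_of_lt ?_ h2
    rw [sq]
    exact Nat.mul_le_mul_right _ h3
  · refine lt_of_le_of_lt ?_ h1
    rw [sq]
    exact Nat.mul_le_mul_left _ h3

end Cfsg.Agent.H7.Wf.UFrame
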