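import Cfsg.Agent.CpAutU.Fixed
import Cfsg.Agent.H533.Wf.Aut

/-!
# S3826, `PSU_n(q)`, `q ≡ 1 (mod 3)`, `n ≥ 3`: the row (helper7)

* `lin_case` : a linear automorphism of order 3 normalises the root group of an isotropic eigenvector and acts on it
  without fixed points;
* `semi_case` : a field automorphism of order 3 normalises a root group and is not trivial on it;
* two field automorphisms: powers are conjugate under inner automorphisms (`GU = Z SU`).
-/

set_option autoImplicit false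

namespace Cfsg.Agent.H7.Wf.UOne

open Matrix Cfsg Cfsg.Agent.LieClassical.HermBasic Cfsg.Agent.LieClassical.HermSiegel
open Cfsg.Agent.LieClassical.HermGen Cfsg.Agent.LieClassical.SUBasic
open Cfsg.Agent.ClassicalGeometry.PSUAutCount (gm semiConj toAut gm_mul gm_one gm_mul_inv gm_inv_mul eq_of_toAut_eq
  sc gm_sc_mul toAut_sc_mul herm_gm act_semiConj herm_semi gm_mulVec_inv gm_inv_mulVec gm_inj)
open Cfsg.Agent.ClassicalGeometry.PSUAutBasic (pr pr_surjective transv act_transv isSiegel_zero siegG isPGroup_siegG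
  transvG transvG_le_siegG)
open Cfsg.Agent.ClassicalGeometry.PSUAutSylow (RR mem_RR siegel_pr_inj exists_partner RR_conj RR_le RR_congr)
open Cfsg.Agent.ClassicalGeometry.PSUAutExt (semiConj_siegel isSiegel_semi)
open Cfsg.Agent.ClassicalGeometry.PSUAutMain (toAut_RR toAut_pr')
open Cfsg.Agent.Schreier.PSU (mapGU gm_mapGU f₁ f₂ f₁_eq_conj)
open Cfsg.Agent.CpAutU.Desc (toAut_mul toAut_one gm_mapGU' mapGU_one exists_scalar exists_conj)
open Cfsg.Agent.CpAutU.Fld (exists_s' pow_q)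
open Cfsg.Agent.CpAut.Psl (fixf mem_fixf perm_apply)
open Cfsg.Agent.H533.Wf

variable {F : Type*} [Field F] [Fintype F] {q n : ℕ}

/-- the automorphism on the root group -/
theorem toAut_transv (hF : Fintype.card F = q ^ 2) (A : GU n F q) (ρ : F ≃+* F) {u : Fin n → F}
    (hu : hermForm n F q u u = 0) {c : F} (h : (gm A *ᵥ fun i => ρ (u i)) = c • u) {μ : F} (hμ : μ + μ ^ q = 0)
    (hμ' : c * c ^ q * ρ μ + (c * c ^ q * ρ μ) ^ q = 0) :
    toAut A ρ (pr n F q (transv hF u hu μ hμ)) = pr n F q (transv hF u hu (c * c ^ q * ρ μ) hμ') := by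
  have h0 : (gm A *ᵥ fun i => ρ ((0 : Fin n → F) i)) = 0 := by
    have : (fun i => ρ ((0 : Fin n → F) i)) = 0 := by
      funext i; exact map_zero ρ
    rw [this, mulVec_zero]
  rw [toAut_pr', transv, semiConj_siegel]
  congr 1
  apply ext_act
  intro v
  rw [act_siegel, act_transv, h, h0, herm_zero_right hF, herm_smul_right]
  funext i
  simp only [Pi.add_apply, Pi.smul_apply, smul_eq_mul, Pi.zero_apply]
  ring

/-- the parameter is determined -/
theorem transv_inj (hF : Fintype.card F = q ^ 2) (hn : 3 ≤ n) {u : Fin n → F} (hu0 : u ≠ 0)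
    (hu : hermForm n F q u u = 0) {μ μ' : F} {hμ : μ + μ ^ q = 0} {hμ' : μ' + μ' ^ q = 0}
    (h : pr n F q (transv hF u hu μ hμ) = pr n F q (transv hF u hu μ' hμ')) : μ = μ' := by
  have h3 : transv hF u hu μ hμ = transv hF u hu μ' hμ' := siegel_pr_inj hF hn _ _ h
  obtain ⟨f, -, huf, hfu⟩ := exists_partner hF hu0 hu
  have h5 : act (transv hF u hu μ hμ) f = act (transv hF u hu μ' hμ') f := by rw [h3]
  rw [act_transv, act_transv, hfu, mul_one, mul_one, add_right_inj] at h5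
  exact smul_left_injective F hu0 h5

theorem transv_ne_one (hF : Fintype.card F = q ^ 2) (hn : 3 ≤ n) {u : Fin n → F} (hu0 : u ≠ 0)
    (hu : hermForm n F q u u = 0) {μ : F} {hμ : μ + μ ^ q = 0} (h0 : μ ≠ 0) :
    pr n F q (transv hF u hu μ hμ) ≠ 1 := by
  intro h
  have h1 : (0 : F) + 0 ^ q = 0 := by rw [zero_pow_q hF, add_zero]
  have h2 : pr n F q (transv hF u hu μ hμ) = pr n F q (transv hF u hu 0 h1) := by
    rw [h, Cfsg.Agent.ClassicalGeometry.PSUAutBasic.transv_zero, map_one]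
  exact h0 (transv_inj hF hn hu0 hu h2)

theorem card_RR (hF : Fintype.card F = q ^ 2) {u : Fin n → F} (hu : hermForm n F q u u = 0) (h3 : ¬ 3 ∣ q) :
    (Nat.card (RR hF u hu)).Coprime 3 := by
  obtain ⟨p, k, hp, hchar, hk, hk0⟩ := exists_prime_pow hF
  have : Fact p.Prime := ⟨hp⟩
  have h1 : IsPGroup p (RR hF u hu) := by
    have h2 : IsPGroup p (transvG hF u hu) := (isPGroup_siegG hF p hu).to_le (transvG_le_siegG hF hu)
    exact h2.map _
  have hfin : Finite (SU n F q) := inferInstance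
  have : Finite (PSU n F q) := Finite.of_surjective _ (pr_surjective (n := n) (F := F) (q := q))
  obtain ⟨m, hm⟩ := IsPGroup.iff_card.1 h1
  rw [hm]
  apply Nat.Coprime.pow_left
  rw [Nat.coprime_primes hp Nat.prime_three]
  rintro rfl
  exact h3 (by rw [hk]; exact dvd_pow_self 3 hk0.ne')

/-- the trace zero elements are permuted -/
theorem trace_mul (hF : Fintype.card F = q ^ 2) {μ : F} (hμ : μ + μ ^ q = 0) (c : F) (ρ : F ≃+* F) :
    c * c ^ q * ρ μ + (c * c ^ q * ρ μ) ^ q = 0 := by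
  rw [mul_pow, norm_pow_q hF, ← mul_add, ← map_pow, ← map_add, hμ, map_zero, mul_zero]

theorem exists_omega (hF : Fintype.card F = q ^ 2) (hq : q % 3 = 1) : ∃ w : F, w * w + w + 1 = 0 := by
  have h2 := two_le hF
  have h1 : 3 ∣ Nat.card Fˣ := by
    rw [card_units_eq hF]
    obtain ⟨m, hm⟩ : ∃ m, q - 1 = 3 * m := ⟨(q - 1) / 3, by omega⟩
    rw [hm]
    exact ⟨(q + 1) * m, by ring⟩
  have : Fact (Nat.Prime 3) := ⟨Nat.prime_three⟩
  obtain ⟨w, hw⟩ := exists_prime_orderOf_dvd_card' 3 h1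
  refine ⟨(w : F), ?_⟩
  have h3 : (w : F) ^ 3 = 1 := by
    have h4 : w ^ 3 = 1 := orderOf_dvd_iff_pow_eq_one.1 (dvd_of_eq hw)
    rw [← Units.val_pow_eq_pow_val, h4, Units.val_one]
  have h4 : (w : F) ≠ 1 := by
    intro h5
    have h6 : w = 1 := Units.ext h5
    rw [h6, orderOf_one] at hw
    norm_num at hw
  have h5 : ((w : F) - 1) * ((w : F) * w + w + 1) = 0 := by linear_combination h3
  rcases mul_eq_zero.1 h5 with h6 | h6
  · exact absurd (sub_eq_zero.1 h6) h4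
  · exact h6

omit [Fintype F] in
theorem pow_q_omega {w : F} (hw : w * w + w + 1 = 0) (hq : q % 3 = 1) : w ^ q = w := by
  have h3 : w ^ 3 = 1 := by linear_combination (w - 1) * hw
  obtain ⟨m, hm⟩ : ∃ m, q = 3 * m + 1 := ⟨q / 3, by omega⟩
  rw [hm, pow_succ, pow_mul, h3, one_pow, one_mul]

theorem three_ne (hF : Fintype.card F = q ^ 2) (h3 : ¬ 3 ∣ q) : (3 : F) ≠ 0 := by
  obtain ⟨p, k, hp, hchar, hk, hk0⟩ := exists_prime_pow hF
  intro h
  have h1 : ((3 : ℕ) : F) = 0 := by exact_mod_cast h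
  rw [CharP.cast_eq_zero_iff F p] at h1
  have h2 : p = 3 := (Nat.prime_dvd_prime_iff_eq hp Nat.prime_three).1 h1
  subst h2
  exact h3 (by rw [hk]; exact dvd_pow_self 3 hk0.ne')

/-- **Linear automorphisms of order 3.** -/
theorem lin_case (hF : Fintype.card F = q ^ 2) (hn : 3 ≤ n) (hq : q % 3 = 1) {A : GU n F q}
    (h3 : toAut A 1 ^ 3 = 1) (h1 : toAut A 1 ≠ 1) : ∃ (u : Fin n → F) (hu : hermForm n F q u u = 0), u ≠ 0 ∧
      (∀ x, toAut A 1 x ∈ RR hF u hu ↔ x ∈ RR hF u hu) ∧ ∀ x ∈ RR hF u hu, toAut A 1 x = x → x = 1 := by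
  obtain ⟨-, l, hl, hS⟩ := exists_scalar hF hn h3
  have hl0 : l ≠ 0 := by
    rintro rfl
    rw [zero_mul] at hl
    exact zero_ne_one hl
  -- normalise
  obtain ⟨m, hm⟩ : ∃ m, q + 1 = 3 * m + 2 := ⟨q / 3, by omega⟩
  obtain ⟨t, ht⟩ : ∃ t, t = l ^ (2 * m + 1) := ⟨_, rfl⟩
  have ht1 : t * t ^ q = 1 := by
    rw [ht, ← pow_mul, mul_comm (2 * m + 1) q, pow_mul, ← mul_pow, hl, one_pow]
  have ht3 : t ^ 3 * l = 1 := by
    have e1 : l ^ (q + 1) = 1 := by rw [pow_succ']; exact hl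
    rw [ht, ← pow_mul, ← pow_succ, show (2 * m + 1) * 3 + 1 = (q + 1) * 2 by rw [hm]; ring, pow_mul, e1, one_pow]
  obtain ⟨A', hA'⟩ : ∃ A' : GU n F q, A' = sc n ⟨t, ht1⟩ * A := ⟨_, rfl⟩
  have hgA' : gm A' = t • gm A := by rw [hA', gm_sc_mul]
  have hAA' : toAut A 1 = toAut A' 1 := by rw [hA', toAut_sc_mul]
  rw [hAA'] at h1 ⊢
  have hA3 : ∀ v, gm A' *ᵥ (gm A' *ᵥ (gm A' *ᵥ v)) = v := by
    intro v
    have e1 : gm A *ᵥ (gm A *ᵥ (gm A *ᵥ v)) = l • v := hS v
    rw [hgA', smul_mulVec, smul_mulVec, smul_mulVec, mulVec_smul, mulVec_smul, mulVec_smul, e1, smul_smul,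
      smul_smul, smul_smul, show t * t * t * l = t ^ 3 * l by ring, ht3, one_smul]
  obtain ⟨v, hv⟩ : ∃ v, gm A' *ᵥ v ≠ v := by
    by_contra hno
    push Not at hno
    apply h1
    have e1 : A' = 1 := by
      apply gm_inj
      apply Matrix.ext_of_mulVec_single
      intro i
      rw [hno, gm_one, one_mulVec]
    rw [e1, toAut_one]
  obtain ⟨w, hw⟩ := exists_omega hF hq
  -- the eigenvector
  obtain ⟨y, hy⟩ : ∃ y, y = gm A' *ᵥ v - v := ⟨_, rfl⟩
  have hy0 : y ≠ 0 := by rw [hy]; exact sub_ne_zero.2 hv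
  have hyy : gm A' *ᵥ (gm A' *ᵥ y) + gm A' *ᵥ y + y = 0 := by
    rw [hy, mulVec_sub, mulVec_sub, hA3]
    abel
  obtain ⟨u, z, hu0, hz, hzu⟩ : ∃ (u : Fin n → F) (z : F), u ≠ 0 ∧ z * z + z + 1 = 0 ∧ gm A' *ᵥ u = z • u := by
    by_cases h0 : gm A' *ᵥ y - (w * w) • y = 0
    · refine ⟨y, w * w, hy0, ?_, sub_eq_zero.1 h0⟩
      linear_combination (w * w - w + 1) * hw
    · refine ⟨_, w, h0, hw, ?_⟩
      have e1 : gm A' *ᵥ (gm A' *ᵥ y) = - gm A' *ᵥ y - y := by
        rw [neg_mulVec]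
        linear_combination (exp := 1) hyy
      rw [mulVec_sub, mulVec_smul, e1, smul_sub, smul_smul, neg_mulVec]
      have e2 : w * (w * w) = 1 := by linear_combination (w - 1) * hw
      have e3 : w * w = - w - 1 := by linear_combination hw
      rw [e2, e3, one_smul]
      module
  have hzq : z ^ q = z := pow_q_omega hz hq
  have h33 : (3 : F) ≠ 0 := three_ne hF (by omega)
  have hz2 : z * z ≠ 1 := by
    intro h
    have e1 : z = -2 := by linear_combination hz - h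
    rw [e1] at h
    apply h33
    linear_combination h
  have hu : hermForm n F q u u = 0 := by
    have e1 := herm_gm A' u u
    rw [hzu, herm_smul_left, herm_smul_right, hzq] at e1
    have e2 : (z * z - 1) * hermForm n F q u u = 0 := by linear_combination e1
    rcases mul_eq_zero.1 e2 with e3 | e3
    · exact absurd (sub_eq_zero.1 e3) hz2
    · exact e3
  have hz0 : z ≠ 0 := by
    rintro rfl
    rw [mul_zero, zero_add, zero_add] at hz
    exact one_ne_zero hz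
  have hzu' : (gm A' *ᵥ fun i => (1 : F ≃+* F) (u i)) = z • u := hzu
  refine ⟨u, hu, hu0, ?_, ?_⟩
  · intro x
    have hu' : hermForm n F q (z • u) (z • u) = 0 := by
      rw [herm_smul_left, herm_smul_right, hu, mul_zero, mul_zero]
    rw [toAut_RR hF A' 1 hu hu' hzu' x, RR_le hF hu hz0 hu']
  · intro x hx hfix
    obtain ⟨μ, hμ, rfl⟩ := mem_RR.1 hx
    rw [toAut_transv hF A' 1 hu hzu' hμ (trace_mul hF hμ z 1)] at hfix
    have e1 := transv_inj hF hn hu0 hu hfix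
    have e2 : (z * z - 1) * μ = 0 := by
      have e3 : z * z ^ q * μ = μ := e1
      rw [hzq] at e3
      linear_combination e3
    rcases mul_eq_zero.1 e2 with e3 | e3
    · exact absurd (sub_eq_zero.1 e3) hz2
    · by_contra hne
      apply hne
      subst e3
      rw [Cfsg.Agent.ClassicalGeometry.PSUAutBasic.transv_zero, map_one]

/-- A trace zero element moved by `ρ`. -/
theorem exists_moved (hF : Fintype.card F = q ^ 2) {ρ : F ≃+* F} (ho : orderOf ρ = 3) :
    ∃ μ : F, μ + μ ^ q = 0 ∧ ρ μ ≠ μ := by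
  by_contra hno
  push Not at hno
  obtain ⟨s, hs2, hs, hqs⟩ := exists_s' hF ho (by decide)
  obtain ⟨μ, hμ0, hμ⟩ := exists_trace_zero_ne hF
  have h1 : ∀ t : F, t ^ q = t → ρ t = t := by
    intro t ht
    have h2 : t * μ + (t * μ) ^ q = 0 := by rw [mul_pow, ht, ← mul_add, hμ, mul_zero]
    have h3 := hno _ h2
    rw [map_mul, hno μ hμ] at h3
    exact mul_right_cancel₀ hμ0 h3
  have h2 : Nat.card {x : F // x ^ q = x} ≤ Nat.card ↥(fixf ρ) :=
    Nat.card_le_card_of_injective (fun x => (⟨x.1, mem_fixf.2 (h1 x.1 x.2)⟩ : ↥(fixf ρ)))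
      (fun x y h => Subtype.ext (congrArg (fun z : ↥(fixf ρ) => (z : F)) h))
  rw [card_fixed hF, hs, hqs] at h2
  have h3 : s ^ 2 < s ^ 3 := Nat.pow_lt_pow_right (by omega) (by norm_num)
  omega

/-- **Field automorphisms of order 3.** -/
theorem semi_case (hF : Fintype.card F = q ^ 2) (hn : 3 ≤ n) {ρ : F ≃+* F} (ho : orderOf ρ = 3)
    (M : GU n F q) : ∃ (u : Fin n → F) (hu : hermForm n F q u u = 0), u ≠ 0 ∧
      (∀ x, (toAut M 1 * toAut 1 ρ * (toAut M 1)⁻¹ : MulAut (PSU n F q)) x ∈ RR hF u hu ↔ x ∈ RR hF u hu) ∧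
      ∃ x ∈ RR hF u hu, (toAut M 1 * toAut 1 ρ * (toAut M 1)⁻¹ : MulAut (PSU n F q)) x ≠ x := by
  classical
  obtain ⟨s, hs2, hs, hqs⟩ := exists_s' hF ho (by decide)
  let _ : Fintype ↥(fixf ρ) := Fintype.ofFinite _
  have hF₀ : Fintype.card ↥(fixf ρ) = s ^ 2 := by rw [← Nat.card_eq_fintype_card, hs]
  have hpow : ∀ a ∈ fixf ρ, a ^ q = a ^ s := fun a ha => pow_q (by decide : Odd 3) hs hqs ha
  obtain ⟨a, ha⟩ := exists_norm_eq hF₀ (c := (-1 : ↥(fixf ρ))) (by rw [neg_pow_q hF₀, one_pow])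
  have haF : (a : F) * (a : F) ^ q = -1 := by
    rw [hpow _ a.2]
    exact congrArg (fun z : ↥(fixf ρ) => (z : F)) ha
  have hρa : ρ (a : F) = a := mem_fixf.1 a.2
  -- the isotropic vector
  let i0 : Fin n := ⟨0, by omega⟩
  let i1 : Fin n := ⟨1, by omega⟩
  have hij : i0 ≠ i1 := by intro h; have := congrArg Fin.val h; norm_num [i0, i1] at this
  obtain ⟨u₀, hu₀⟩ : ∃ u₀ : Fin n → F, u₀ = Pi.single i0 1 + (a : F) • Pi.single i1 1 := ⟨_, rfl⟩
  have h00 : u₀ i0 = 1 := by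
    rw [hu₀, Pi.add_apply, Pi.smul_apply, Pi.single_eq_same, Pi.single_eq_of_ne hij, smul_zero, add_zero]
  have hu₀0 : u₀ ≠ 0 := by
    intro h
    rw [h, Pi.zero_apply] at h00
    exact zero_ne_one h00
  have hρu : (fun i => ρ (u₀ i)) = u₀ := by
    funext i
    rw [hu₀, Pi.add_apply, Pi.smul_apply, smul_eq_mul, map_add, map_mul, hρa]
    congr 1
    · by_cases h : i = i0
      · subst h; rw [Pi.single_eq_same, map_one]
      · rw [Pi.single_eq_of_ne h, map_zero]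
    · congr 1
      by_cases h : i = i1
      · subst h; rw [Pi.single_eq_same, map_one]
      · rw [Pi.single_eq_of_ne h, map_zero]
  have hiso : hermForm n F q u₀ u₀ = 0 := by
    have e1 : hermForm n F q (Pi.single i0 1 : Fin n → F) (Pi.single i0 1) = 1 := by
      rw [herm_single_left, Pi.single_eq_same, one_pow, mul_one]
    have e2 : hermForm n F q (Pi.single i1 1 : Fin n → F) (Pi.single i1 1) = 1 := by
      rw [herm_single_left, Pi.single_eq_same, one_pow, mul_one]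
    have e3 : hermForm n F q (Pi.single i0 1 : Fin n → F) (Pi.single i1 1) = 0 := by
      rw [herm_single_left, Pi.single_eq_of_ne hij, zero_pow_q hF, mul_zero]
    have e4 : hermForm n F q (Pi.single i1 1 : Fin n → F) (Pi.single i0 1) = 0 := by
      rw [herm_single_left, Pi.single_eq_of_ne hij.symm, zero_pow_q hF, mul_zero]
    rw [hu₀, herm_add_left, herm_add_right hF, herm_add_right hF, herm_smul_left, herm_smul_right,
      herm_smul_left, herm_smul_right, e1, e2, e3, e4]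
    linear_combination haF
  obtain ⟨u, hu⟩ : ∃ u, u = gm M *ᵥ u₀ := ⟨_, rfl⟩
  have hu' : (gm M *ᵥ fun i => (1 : F ≃+* F) (u₀ i)) = u := hu.symm
  have hisou : hermForm n F q u u = 0 := by rw [hu, herm_gm, hiso]
  have hu0 : u ≠ 0 := by
    intro h
    apply hu₀0
    rw [← gm_inv_mulVec M u₀, ← hu, h, mulVec_zero]
  have hM : ∀ x, x ∈ RR hF u₀ hiso ↔ toAut M 1 x ∈ RR hF u hisou := toAut_RR hF M 1 hiso hisou hu'
  have hφ : ∀ x, x ∈ RR hF u₀ hiso ↔ toAut (1 : GU n F q) ρ x ∈ RR hF u₀ hiso :=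
    toAut_RR hF 1 ρ hiso hiso (by rw [hρu, gm_one, one_mulVec])
  refine ⟨u, hisou, hu0, ?_, ?_⟩
  · intro x
    obtain ⟨y, rfl⟩ : ∃ y, toAut M 1 y = x := ⟨(toAut M 1)⁻¹ x, MulAut.apply_inv_self _ _ _⟩
    rw [MulAut.mul_apply, MulAut.mul_apply, MulAut.inv_apply_self, ← hM, ← hM, ← hφ]
  · obtain ⟨μ, hμ, hρμ⟩ := exists_moved hF ho
    refine ⟨toAut M 1 (pr n F q (transv hF u₀ hiso μ hμ)), (hM _).1 (mem_RR.2 ⟨μ, hμ, rfl⟩), ?_⟩
    rw [MulAut.mul_apply, MulAut.mul_apply, MulAut.inv_apply_self]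
    intro h
    have h1 := (toAut M 1).injective h
    rw [toAut_transv hF 1 ρ hiso (c := 1) (by rw [hρu, gm_one, one_mulVec, one_smul]) hμ (trace_mul hF hμ 1 ρ)] at h1
    have h2 := transv_inj hF hn hu₀0 hiso h1
    rw [one_pow, one_mul, one_mul] at h2
    exact hρμ h2

/-- two field automorphisms of order 3 -/
theorem eq_or_inv {ρ ρ' : F ≃+* F} (h : orderOf ρ = 3) (h' : orderOf ρ' = 3) : ρ' = ρ ∨ ρ' = ρ⁻¹ := by
  classical
  have hc : IsCyclic (F ≃+* F) := LieRecognition.FieldSemilinear.isCyclic_ringAut F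
  have : Finite (F ≃+* F) := Finite.of_injective (fun e : F ≃+* F => (e : F → F)) (fun a b h => RingEquiv.ext (congrFun h))
  let _ : Fintype (F ≃+* F) := Fintype.ofFinite _
  have h1 := IsCyclic.card_pow_eq_one_le (α := F ≃+* F) (n := 3) (by norm_num)
  have hr3 : ρ ^ 3 = 1 := orderOf_dvd_iff_pow_eq_one.1 (dvd_of_eq h)
  have hr3' : ρ' ^ 3 = 1 := orderOf_dvd_iff_pow_eq_one.1 (dvd_of_eq h')
  have hne : ρ ≠ 1 := by rintro rfl; rw [orderOf_one] at h; norm_num at h
  have hne' : ρ' ≠ 1 := by rintro rfl; rw [orderOf_one] at h'; norm_num at h'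
  have hinv : ρ ≠ ρ⁻¹ := by
    intro h2
    have h3 : ρ ^ 2 = 1 := by rw [sq]; nth_rewrite 2 [h2]; exact mul_inv_cancel ρ
    have h4 := orderOf_dvd_iff_pow_eq_one.2 h3
    rw [h] at h4
    norm_num at h4
  have hinv3 : ρ⁻¹ ^ 3 = 1 := by rw [inv_pow, hr3, inv_one]
  by_contra hno
  push Not at hno
  have h2 : ({1, ρ, ρ⁻¹, ρ'} : Finset (F ≃+* F)) ⊆ Finset.univ.filter (fun a => a ^ 3 = 1) := by
    intro a ha
    simp only [Finset.mem_insert, Finset.mem_singleton] at ha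
    rw [Finset.mem_filter]
    refine ⟨Finset.mem_univ _, ?_⟩
    rcases ha with rfl | rfl | rfl | rfl
    · exact one_pow 3
    · exact hr3
    · exact hinv3
    · exact hr3'
  have h3 := (Finset.card_le_card h2).trans h1
  rw [Finset.card_insert_of_notMem, Finset.card_insert_of_notMem, Finset.card_pair hno.2.symm] at h3
  · norm_num at h3
  · simp only [Finset.mem_insert, Finset.mem_singleton, not_or]
    exact ⟨hinv, hno.1.symm⟩
  · simp only [Finset.mem_insert, Finset.mem_singleton, not_or]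
    exact ⟨hne.symm, fun h4 => hne (inv_eq_one.1 h4.symm), hne'.symm⟩

/-- The double commutator. -/
theorem exists_double (hF : Fintype.card F = q ^ 2) (h3 : ¬ 3 ∣ q) {ρ ρ' : F ≃+* F} (h : orderOf ρ = 3)
    (h' : orderOf ρ' = 3) : ∃ μ : F, μ + μ ^ q = 0 ∧ ρ (ρ' μ - μ) ≠ ρ' μ - μ := by
  by_contra hno
  push Not at hno
  have hr3 : ρ ^ 3 = 1 := orderOf_dvd_iff_pow_eq_one.1 (dvd_of_eq h)
  have hr : ∀ x, ρ (ρ (ρ x)) = x := fun x => congrFun (congrArg (fun e : F ≃+* F => (e : F → F)) hr3) x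
  have h33 := three_ne hF h3
  have hT : ∀ μ : F, μ + μ ^ q = 0 → ρ μ + (ρ μ) ^ q = 0 := by
    intro μ hμ
    rw [← map_pow, ← map_add, hμ, map_zero]
  have key : ∀ μ : F, μ + μ ^ q = 0 → ρ (ρ μ) - ρ μ = ρ μ - μ := by
    intro μ hμ
    rcases eq_or_inv h h' with rfl | rfl
    · have h1 := hno μ hμ
      rwa [map_sub] at h1
    · have h1 := hno (ρ μ) (hT _ hμ)
      have e1 : ∀ x, (ρ⁻¹ : F ≃+* F) (ρ x) = x := fun x => ρ.symm_apply_apply x
      rw [e1, map_sub] at h1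
      linear_combination -h1
  obtain ⟨μ, hμ, hne⟩ := exists_moved hF h
  apply hne
  have h1 := key μ hμ
  have h2 := key _ (hT μ hμ)
  rw [hr] at h2
  have h4 : (3 : F) * (ρ μ - μ) = 0 := by linear_combination -h2 - 2 * h1
  rcases mul_eq_zero.1 h4 with h5 | h5
  · exact absurd h5 h33
  · exact sub_eq_zero.1 h5

/-- Field automorphisms, normalised by inner automorphisms. -/
theorem exists_norm_semi (hF : Fintype.card F = q ^ 2) (ρ : F ≃+* F) (M : GU n F q) (i : Fin n) :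
    ∃ (g : SU n F q) (D : GU n F q), (∀ u : Fin n → F, u i = 0 → gm D *ᵥ u = u) ∧
      MulAut.conj (pr n F q g) * (toAut M 1 * toAut 1 ρ * (toAut M 1)⁻¹) * (MulAut.conj (pr n F q g))⁻¹ =
        toAut D 1 * toAut 1 ρ * (toAut D 1)⁻¹ := by
  classical
  have ha : ∀ j : Fin n, (fun j : Fin n => if j = i then (gm M).det else 1) j ^ (q + 1) = 1 := by
    intro j
    simp only
    split_ifs
    · exact Cfsg.Agent.ClassicalGeometry.GUBasic.det_pow hF
        ((Cfsg.Agent.ClassicalGeometry.GUBasic.mem_GU_iff _).1 M.2)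
    · exact one_pow _
  obtain ⟨D, hD⟩ : ∃ D, D = Cfsg.Agent.ClassicalGeometry.GUBasic.guDiag q _ ha := ⟨_, rfl⟩
  have hDg : gm D = Matrix.diagonal (fun j : Fin n => if j = i then (gm M).det else 1) := by rw [hD]; rfl
  have hDd : (gm D).det = (gm M).det := by
    rw [hDg, Matrix.det_diagonal, Finset.prod_ite_eq' Finset.univ i, if_pos (Finset.mem_univ i)]
  have hdet : (gm (D * M⁻¹)).det = 1 := by
    have h1 : (gm M).det * (gm M⁻¹).det = 1 := by rw [← det_mul, gm_mul_inv, det_one]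
    rw [gm_mul, det_mul, hDd, h1]
  let g : SU n F q := mkSU (gm (D * M⁻¹)) hdet (fun u v => herm_gm _ u v)
  refine ⟨g, D, ?_, ?_⟩
  · intro u hu
    rw [hDg]
    funext j
    rw [Matrix.mulVec_diagonal]
    split_ifs with h
    · rw [h, hu, mul_zero]
    · rw [one_mul]
  · have h1 : MulAut.conj (pr n F q g) = toAut (D * M⁻¹) 1 := (f₁_eq_conj (D * M⁻¹) g rfl).symm
    have h2 : toAut (D * M⁻¹) 1 = toAut D 1 * (toAut M 1)⁻¹ := by
      show f₁ (D * M⁻¹) = f₁ D * (f₁ M)⁻¹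
      rw [map_mul, map_inv]
    rw [h1, h2]
    group

/-- the action of a normalised field automorphism on a root group -/
theorem norm_apply (hF : Fintype.card F = q ^ 2) {D : GU n F q} {ρ : F ≃+* F} {u : Fin n → F}
    (hu : hermForm n F q u u = 0) (hD : gm D *ᵥ u = u) (hρ : (fun i => ρ (u i)) = u) {μ : F} (hμ : μ + μ ^ q = 0)
    (hμ' : ρ μ + (ρ μ) ^ q = 0) :
    (toAut D 1 * toAut 1 ρ * (toAut D 1)⁻¹ : MulAut (PSU n F q)) (pr n F q (transv hF u hu μ hμ)) =
      pr n F q (transv hF u hu (ρ μ) hμ') := by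
  have h1 : ∀ ν (hν : ν + ν ^ q = 0), toAut D 1 (pr n F q (transv hF u hu ν hν)) = pr n F q (transv hF u hu ν hν) := by
    intro ν hν
    rw [toAut_transv hF D 1 hu (c := 1) (by rw [one_smul]; exact hD) hν (trace_mul hF hν 1 1)]
    congr 1
    apply ext_act
    intro v
    rw [act_transv, act_transv, one_pow, one_mul, one_mul]
    rfl
  have h2 : (toAut D 1)⁻¹ (pr n F q (transv hF u hu μ hμ)) = pr n F q (transv hF u hu μ hμ) := by
    apply (toAut D 1).injective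
    rw [h1 μ hμ]
    exact MulAut.apply_inv_self _ _ _
  rw [MulAut.mul_apply, MulAut.mul_apply, h2,
    toAut_transv hF 1 ρ hu (c := 1) (by rw [one_smul, gm_one, one_mulVec]; exact hρ) hμ (trace_mul hF hμ 1 ρ)]
  have h3 : pr n F q (transv hF u hu (1 * 1 ^ q * ρ μ) (trace_mul hF hμ 1 ρ)) =
      pr n F q (transv hF u hu (ρ μ) hμ') := by
    congr 1
    apply ext_act
    intro v
    rw [act_transv, act_transv, one_pow, one_mul, one_mul]
  rw [h3, h1]

/-- every automorphism of order 3 normalises a root group and is not trivial on it -/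
theorem gen_case (hF : Fintype.card F = q ^ 2) (hn : 3 ≤ n) (hq : q % 3 = 1) {α : MulAut (PSU n F q)}
    (ho : orderOf α = 3) : ∃ (u : Fin n → F) (hu : hermForm n F q u u = 0), u ≠ 0 ∧
      (∀ x, α x ∈ RR hF u hu ↔ x ∈ RR hF u hu) ∧ ∃ x ∈ RR hF u hu, α x ≠ x := by
  have h3 : α ^ 3 = 1 := orderOf_dvd_iff_pow_eq_one.1 (dvd_of_eq ho)
  have h1 : α ≠ 1 := by rintro rfl; rw [orderOf_one] at ho; norm_num at ho
  have h2 := two_le hF
  obtain ⟨A, ρ, rfl⟩ := Cfsg.Agent.ClassicalGeometry.PSUAutMain.exists_toAut hF hn (by omega) α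
  by_cases hρ : ρ = 1
  · subst hρ
    obtain ⟨u, hu, hu0, h4, h5⟩ := lin_case hF hn hq h3 h1
    refine ⟨u, hu, hu0, h4, ?_⟩
    obtain ⟨μ, hμ0, hμ⟩ := exists_trace_zero_ne hF
    refine ⟨_, mem_RR.2 ⟨μ, hμ, rfl⟩, fun h6 => ?_⟩
    exact transv_ne_one hF hn hu0 hu hμ0 (h5 _ (mem_RR.2 ⟨μ, hμ, rfl⟩) h6)
  · obtain ⟨ho', M, hM⟩ := exists_conj hF hn Nat.prime_three (by norm_num) h3 hρ
    rw [hM]
    exact semi_case hF hn ho' M

section Kill

variable {Γ : Subgroup (MulAut (PSU n F q))} {C D : Set (MulAut (PSU n F q))}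

theorem finite_PSU : Finite (PSU n F q) := by
  have hfin : Finite (SU n F q) := inferInstance
  exact Finite.of_surjective _ (pr_surjective (n := n) (F := F) (q := q))

theorem kill_lin (hF : Fintype.card F = q ^ 2) (hn : 3 ≤ n) (hq : q % 3 = 1) (h : ACfg 3 Γ C D) {A : GU n F q}
    (hc : toAut A 1 ∈ C) : False := by
  have := finite_PSU (F := F) (q := q) (n := n)
  have : Fact (Nat.Prime 3) := ⟨Nat.prime_three⟩
  obtain ⟨d, hd⟩ := h.neD
  have hco := h.ordC _ hc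
  have h3 : toAut A 1 ^ 3 = 1 := orderOf_dvd_iff_pow_eq_one.1 (dvd_of_eq hco)
  have h1 : toAut A 1 ≠ 1 := by intro h1; rw [h1, orderOf_one] at hco; norm_num at hco
  obtain ⟨u, hu, hu0, h4, h5⟩ := lin_case hF hn hq h3 h1
  obtain ⟨u', hu', hu0', h6, x, hx, hne⟩ := gen_case hF hn hq (h.ordD d hd)
  obtain ⟨g, -, hg⟩ := exists_map_iso hF hn le_rfl (mem_coordSub_top u') (mem_coordSub_top u) hu0' hu0 hu' hu
  obtain ⟨d', hd'⟩ : ∃ d', d' = MulAut.conj (pr n F q g) * d * (MulAut.conj (pr n F q g))⁻¹ := ⟨_, rfl⟩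
  have hd'D : d' ∈ D := by rw [hd']; exact h.conjD _ (h.inn ⟨_, rfl⟩) d hd
  have hgu : hermForm n F q (act g u') (act g u') = 0 := by rw [hg]; exact hu
  have hRR : ∀ y, y ∈ RR hF u hu ↔ (pr n F q g)⁻¹ * y * pr n F q g ∈ RR hF u' hu' := by
    intro y
    rw [← RR_conj hF hu' g hgu, RR_congr hF hgu hu hg]
  have hd'a : ∀ y, (pr n F q g)⁻¹ * d' y * pr n F q g = d ((pr n F q g)⁻¹ * y * pr n F q g) := by
    intro y
    rw [hd', MulAut.mul_apply, MulAut.mul_apply, MulAut.conj_inv_apply, MulAut.conj_apply]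
    group
  have hpres : ∀ y, d' y ∈ RR hF u hu ↔ y ∈ RR hF u hu := by
    intro y
    rw [hRR, hd'a, h6, ← hRR]
  obtain ⟨r, hr⟩ : ∃ r, r = pr n F q g * x * (pr n F q g)⁻¹ := ⟨_, rfl⟩
  have hrx : (pr n F q g)⁻¹ * r * pr n F q g = x := by rw [hr]; group
  have hrR : r ∈ RR hF u hu := by rw [hRR, hrx]; exact hx
  have hrne : d' r ≠ r := by
    intro h7
    apply hne
    have h8 := hd'a r
    rw [h7, hrx] at h8
    exact h8.symm
  refine h.false_of_pprime (card_RR hF hu (by omega)) hc hd'D h4 hpres hrR ?_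
  intro h7
  have h8 : r⁻¹ * d' r ∈ RR hF u hu := mul_mem (inv_mem hrR) ((hpres r).2 hrR)
  have h9 := h5 _ h8 h7
  rw [inv_mul_eq_one] at h9
  exact hrne h9.symm

theorem kill_semi (hF : Fintype.card F = q ^ 2) (hn : 3 ≤ n) (hq : q % 3 = 1) (h : ACfg 3 Γ C D) {A B : GU n F q}
    {ρ σ : F ≃+* F} (hρ : ρ ≠ 1) (hσ : σ ≠ 1) (hc : toAut A ρ ∈ C) (hd : toAut B σ ∈ D) : False := by
  classical
  have := finite_PSU (F := F) (q := q) (n := n)
  have : Fact (Nat.Prime 3) := ⟨Nat.prime_three⟩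
  have hc3 : toAut A ρ ^ 3 = 1 := orderOf_dvd_iff_pow_eq_one.1 (dvd_of_eq (h.ordC _ hc))
  have hd3 : toAut B σ ^ 3 = 1 := orderOf_dvd_iff_pow_eq_one.1 (dvd_of_eq (h.ordD _ hd))
  obtain ⟨hoρ, M, hM⟩ := exists_conj hF hn Nat.prime_three (by norm_num) hc3 hρ
  obtain ⟨hoσ, N, hN⟩ := exists_conj hF hn Nat.prime_three (by norm_num) hd3 hσ
  let i0 : Fin n := ⟨0, by omega⟩
  let i1 : Fin n := ⟨1, by omega⟩
  let i2 : Fin n := ⟨2, by omega⟩
  have hij : i0 ≠ i1 := by intro h; have := congrArg Fin.val h; norm_num [i0, i1] at this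
  have hi02 : i2 ≠ i0 := by intro h; have := congrArg Fin.val h; norm_num [i0, i2] at this
  have hi12 : i2 ≠ i1 := by intro h; have := congrArg Fin.val h; norm_num [i1, i2] at this
  obtain ⟨g, G, hG, hgG⟩ := exists_norm_semi hF ρ M i2
  obtain ⟨k, K, hK, hkK⟩ := exists_norm_semi hF σ N i2
  rw [← hM] at hgG
  rw [← hN] at hkK
  obtain ⟨c', hc'⟩ : ∃ c', c' = toAut G 1 * toAut 1 ρ * (toAut G 1)⁻¹ := ⟨_, rfl⟩
  obtain ⟨d', hd'⟩ : ∃ d', d' = toAut K 1 * toAut 1 σ * (toAut K 1)⁻¹ := ⟨_, rfl⟩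
  have hc'C : c' ∈ C := by rw [hc', ← hgG]; exact h.conjC _ (h.inn ⟨_, rfl⟩) _ hc
  have hd'D : d' ∈ D := by rw [hd', ← hkK]; exact h.conjD _ (h.inn ⟨_, rfl⟩) _ hd
  -- the isotropic vector
  obtain ⟨s, hs2, hs, hqs⟩ := exists_s' hF hoρ (by decide)
  let _ : Fintype ↥(fixf ρ) := Fintype.ofFinite _
  have hF₀ : Fintype.card ↥(fixf ρ) = s ^ 2 := by rw [← Nat.card_eq_fintype_card, hs]
  have hpow : ∀ a ∈ fixf ρ, a ^ q = a ^ s := fun a ha => pow_q (by decide : Odd 3) hs hqs ha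
  obtain ⟨a, ha⟩ := exists_norm_eq hF₀ (c := (-1 : ↥(fixf ρ))) (by rw [neg_pow_q hF₀, one_pow])
  have haF : (a : F) * (a : F) ^ q = -1 := by
    rw [hpow _ a.2]
    exact congrArg (fun z : ↥(fixf ρ) => (z : F)) ha
  have hρa : ρ (a : F) = a := mem_fixf.1 a.2
  have hσa : σ (a : F) = a := by
    rcases eq_or_inv hoρ hoσ with rfl | rfl
    · exact hρa
    · have h5 : (ρ⁻¹ : F ≃+* F) (ρ (a : F)) = a := ρ.symm_apply_apply _
      rwa [hρa] at h5
  obtain ⟨u, hu⟩ : ∃ u : Fin n → F, u = Pi.single i0 1 + (a : F) • Pi.single i1 1 := ⟨_, rfl⟩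
  have h00 : u i0 = 1 := by
    rw [hu, Pi.add_apply, Pi.smul_apply, Pi.single_eq_same, Pi.single_eq_of_ne hij, smul_zero, add_zero]
  have h02 : u i2 = 0 := by
    rw [hu, Pi.add_apply, Pi.smul_apply, Pi.single_eq_of_ne hi02, Pi.single_eq_of_ne hi12, smul_zero, add_zero]
  have hu0 : u ≠ 0 := by
    intro h
    rw [h, Pi.zero_apply] at h00
    exact zero_ne_one h00
  have hfix : ∀ τ : F ≃+* F, τ (a : F) = a → (fun i => τ (u i)) = u := by
    intro τ hτ
    funext i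
    rw [hu, Pi.add_apply, Pi.smul_apply, smul_eq_mul, map_add, map_mul, hτ]
    congr 1
    · by_cases h : i = i0
      · subst h; rw [Pi.single_eq_same, map_one]
      · rw [Pi.single_eq_of_ne h, map_zero]
    · congr 1
      by_cases h : i = i1
      · subst h; rw [Pi.single_eq_same, map_one]
      · rw [Pi.single_eq_of_ne h, map_zero]
  have hiso : hermForm n F q u u = 0 := by
    have e1 : hermForm n F q (Pi.single i0 1 : Fin n → F) (Pi.single i0 1) = 1 := by
      rw [herm_single_left, Pi.single_eq_same, one_pow, mul_one]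
    have e2 : hermForm n F q (Pi.single i1 1 : Fin n → F) (Pi.single i1 1) = 1 := by
      rw [herm_single_left, Pi.single_eq_same, one_pow, mul_one]
    have e3 : hermForm n F q (Pi.single i0 1 : Fin n → F) (Pi.single i1 1) = 0 := by
      rw [herm_single_left, Pi.single_eq_of_ne hij, zero_pow_q hF, mul_zero]
    have e4 : hermForm n F q (Pi.single i1 1 : Fin n → F) (Pi.single i0 1) = 0 := by
      rw [herm_single_left, Pi.single_eq_of_ne hij.symm, zero_pow_q hF, mul_zero]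
    rw [hu, herm_add_left, herm_add_right hF, herm_add_right hF, herm_smul_left, herm_smul_right,
      herm_smul_left, herm_smul_right, e1, e2, e3, e4]
    linear_combination haF
  have hT : ∀ (τ : F ≃+* F) (μ : F), μ + μ ^ q = 0 → τ μ + (τ μ) ^ q = 0 := by
    intro τ μ hμ
    rw [← map_pow, ← map_add, hμ, map_zero]
  have hca : ∀ μ (hμ : μ + μ ^ q = 0), c' (pr n F q (transv hF u hiso μ hμ)) =
      pr n F q (transv hF u hiso (ρ μ) (hT ρ μ hμ)) := by
    intro μ hμ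
    rw [hc']
    exact norm_apply hF hiso (hG u h02) (hfix ρ hρa) hμ _
  have hda : ∀ μ (hμ : μ + μ ^ q = 0), d' (pr n F q (transv hF u hiso μ hμ)) =
      pr n F q (transv hF u hiso (σ μ) (hT σ μ hμ)) := by
    intro μ hμ
    rw [hd']
    exact norm_apply hF hiso (hK u h02) (hfix σ hσa) hμ _
  have hpres : ∀ (α : MulAut (PSU n F q)) (τ : F ≃+* F), (∀ μ (hμ : μ + μ ^ q = 0),
      α (pr n F q (transv hF u hiso μ hμ)) = pr n F q (transv hF u hiso (τ μ) (hT τ μ hμ))) →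
      ∀ x, α x ∈ RR hF u hiso ↔ x ∈ RR hF u hiso := by
    intro α τ hα x
    constructor
    · intro hx
      obtain ⟨ν, hν, h7⟩ := mem_RR.1 hx
      have h8 := hα (τ.symm ν) (by rw [← map_pow, ← map_add, hν, map_zero])
      have h9 : pr n F q (transv hF u hiso (τ (τ.symm ν)) (hT τ _ (by rw [← map_pow, ← map_add, hν, map_zero]))) =
          pr n F q (transv hF u hiso ν hν) := by
        congr 1
        apply ext_act
        intro v
        rw [act_transv, act_transv, RingEquiv.apply_symm_apply]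
      rw [h9, ← h7] at h8
      rw [← α.injective h8]
      exact mem_RR.2 ⟨_, _, rfl⟩
    · intro hx
      obtain ⟨ν, hν, rfl⟩ := mem_RR.1 hx
      rw [hα]
      exact mem_RR.2 ⟨_, _, rfl⟩
  obtain ⟨μ, hμ, hne⟩ := exists_double hF (by omega) hoρ hoσ
  have hμ2 : (σ μ - μ) + (σ μ - μ) ^ q = 0 := by
    rw [sub_pow_q hF]
    linear_combination hT σ μ hμ - hμ
  refine h.false_of_pprime (card_RR hF hiso (by omega)) hc'C hd'D (hpres c' ρ hca) (hpres d' σ hda)
    (mem_RR.2 ⟨μ, hμ, rfl⟩) ?_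
  have h7 : (pr n F q (transv hF u hiso μ hμ))⁻¹ * d' (pr n F q (transv hF u hiso μ hμ)) =
      pr n F q (transv hF u hiso (σ μ - μ) hμ2) := by
    rw [hda, inv_mul_eq_iff_eq_mul, ← map_mul, Cfsg.Agent.ClassicalGeometry.PSUAutBasic.transv_mul]
    congr 1
    apply ext_act
    intro v
    rw [act_transv, act_transv, add_sub_cancel]
  rw [h7, hca]
  intro h8
  exact hne (transv_inj hF hn hu0 hiso h8)

/-- **`q ≡ 1 (mod 3)`.** -/
theorem arow_one (hF : Fintype.card F = q ^ 2) (hn : 3 ≤ n) (hq : q % 3 = 1) : ARow 3 (PSU n F q) := by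
  intro Γ C D h
  have h2 := two_le hF
  obtain ⟨c, hc⟩ := h.neC
  obtain ⟨d, hd⟩ := h.neD
  obtain ⟨A, ρ, rfl⟩ := Cfsg.Agent.ClassicalGeometry.PSUAutMain.exists_toAut hF hn (by omega) c
  obtain ⟨B, σ, rfl⟩ := Cfsg.Agent.ClassicalGeometry.PSUAutMain.exists_toAut hF hn (by omega) d
  by_cases hρ : ρ = 1
  · subst hρ
    exact kill_lin hF hn hq h hc
  · by_cases hσ : σ = 1
    · subst hσ
      exact kill_lin hF hn hq h.symm hd
    · exact kill_semi hF hn hq h hρ hσ hc hd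

end Kill

end Cfsg.Agent.H7.Wf.UOne
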